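import Cfsg.Agent.H896.EPX.ASixTwo
import Cfsg.Agent.S1062
import Cfsg.Agent.S1067

/-!
# S5745, row `k.f4.2+td4.4.A6^2`: `soc(H) = A₆ × A₆` in `F₄(q)` (all `q`) and `³D₄(q)`, `q ≥ 4` (helper896)
-/

set_option autoImplicit false

namespace Cfsg.Agent.H896.EPX

open Cfsg Cfsg.Agent.H284 Cfsg.Agent.H209.EPX

/-- `F₄(q)`, any `q` -/
theorem f4_aSix {F : Type*} [Field F] [Fintype F] {H N : Subgroup ↥(Lie.chevF4.group F)} {T : Type} [Group T]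
    {e : N ≃* (Fin 2 → T)} (h : EPS H N e) (f : T ≃* alternatingGroup (Fin 6)) : False := by
  have h1 := Cfsg.Agent.S1062.result (F := F) rfl
  have h2 : 2 ≤ Fintype.card F := Fintype.one_lt_card
  generalize Fintype.card F = q at h1 h2
  have hfin : Finite ↥(Lie.chevF4.group F) := by
    apply Nat.finite_of_card_ne_zero
    rw [h1]
    have e2 : 2 ^ 2 ≤ q ^ 2 := Nat.pow_le_pow_left h2 2
    have e6 : 2 ^ 6 ≤ q ^ 6 := Nat.pow_le_pow_left h2 6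
    have e8 : 2 ^ 8 ≤ q ^ 8 := Nat.pow_le_pow_left h2 8
    have e12 : 2 ^ 12 ≤ q ^ 12 := Nat.pow_le_pow_left h2 12
    have e24 : 2 ^ 24 ≤ q ^ 24 := Nat.pow_le_pow_left h2 24
    have : 0 < q ^ 24 * (q ^ 2 - 1) * (q ^ 6 - 1) * (q ^ 8 - 1) * (q ^ 12 - 1) := by
      refine Nat.mul_pos (Nat.mul_pos (Nat.mul_pos (Nat.mul_pos ?_ ?_) ?_) ?_) ?_ <;> omega
    omega
  have h3 := card_lt_aSix_two h f
  have h4 : 2 ^ 24 * (2 ^ 2 - 1) * (2 ^ 6 - 1) * (2 ^ 8 - 1) * (2 ^ 12 - 1) ≤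
      q ^ 24 * (q ^ 2 - 1) * (q ^ 6 - 1) * (q ^ 8 - 1) * (q ^ 12 - 1) := by gcongr
  rw [← h1] at h4
  norm_num at h4
  omega

/-- `³D₄(q)`, `q ≥ 4` -/
theorem td4_aSix {K : Type*} [Field K] [Fintype K] {q : ℕ} (hq : IsPrimePow q) (hK : Fintype.card K = q ^ 3)
    (hq4 : 4 ≤ q) {H N : Subgroup ↥(Lie.twistedD4 K q)} {T : Type} [Group T]
    {e : N ≃* (Fin 2 → T)} (h : EPS H N e) (f : T ≃* alternatingGroup (Fin 6)) : False := by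
  have h1 := Cfsg.Agent.S1067.result hq hK
  have h4 : 4 ^ 12 * (4 ^ 2 - 1) * (4 ^ 6 - 1) * (4 ^ 8 + 4 ^ 4 + 1) ≤
      q ^ 12 * (q ^ 2 - 1) * (q ^ 6 - 1) * (q ^ 8 + q ^ 4 + 1) := by gcongr
  rw [← h1] at h4
  norm_num at h4
  have hfin : Finite ↥(Lie.twistedD4 K q) := by
    apply Nat.finite_of_card_ne_zero
    omega
  have h3 := card_lt_aSix_two h f
  omega

end Cfsg.Agent.H896.EPX
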