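import Cfsg.Agent.H896.EPX.Two
import Cfsg.Agent.H417.EP.ASix

/-!
# S5745, `soc(H) = A₆ × A₆`: `|G| < 10 ^ 15` (helper896)

This removes `F₄(2)` (`|F₄(2)| = 3311126603366400`) and `³D₄(4)` (`|³D₄(4)| = 67802350642790400`).
-/

set_option autoImplicit false

namespace Cfsg.Agent.H896.EPX

open Subgroup Equiv Equiv.Perm Cfsg.Agent.H284 Cfsg.Agent.H209.EPX
open Cfsg.Agent.H417.EP (Adm)
open Cfsg.Agent.H417.EP.Six (A6)

theorem sch_A6 : Cfsg.Agent.Schreier.Basic.Sch A6 := by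
  intro C hC
  rw [← hC, Subgroup.commutator_le]
  intro α _ β _
  rw [commutatorElement_def]
  refine Cfsg.Agent.H417.EP.Six.out_comm (fun z hz => Cfsg.Agent.H417.EP.Six.center_A6 z hz) ?_ α β
  rw [Cfsg.Agent.H417.EP.Six.card_aut, Cfsg.Agent.H417.EP.Six.card_A6]

/-- the admissible subgroups of `A₆` have order at least `8` -/
theorem adm_ge {K : Subgroup A6} (hK : Adm K) : 8 ≤ Nat.card K := by
  rcases Cfsg.Agent.H417.EP.Six.adm_ty hK with ⟨⟨e⟩⟩ | ⟨⟨e⟩⟩ | ⟨⟨e⟩⟩ | ⟨⟨e⟩⟩ | ⟨hc, -⟩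
  · rw [Nat.card_congr e.toEquiv, DihedralGroup.nat_card]
  · rw [Nat.card_congr e.toEquiv, DihedralGroup.nat_card]
    norm_num
  · rw [Nat.card_congr e.toEquiv, Nat.card_perm, Nat.card_fin]
    decide
  · have h : 2 * Nat.card (alternatingGroup (Fin 5)) = Nat.card (Perm (Fin 5)) :=
      two_mul_nat_card_alternatingGroup (α := Fin 5)
    rw [Nat.card_perm, Nat.card_fin] at h
    have h1 : Nat.factorial 5 = 120 := by decide
    rw [Nat.card_congr e.toEquiv]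
    omega
  · rw [hc]
    norm_num

variable {G : Type*} [Group G] {H N : Subgroup G} {T : Type} [Group T] {e : N ≃* (Fin 2 → T)}

/-- **`soc(H) = A₆ × A₆` implies `|G| < 10 ^ 15`** -/
theorem card_lt_aSix_two [Finite G] (h : EPS H N e) (f : T ≃* alternatingGroup (Fin 6)) : Nat.card G < 10 ^ 15 := by
  have h1 := card_le_two h (Cfsg.Agent.Schreier.Basic.Sch.of_equiv f.symm sch_A6) (L := A6) f (c := 8) (a := 166)
    (A := 1440) (l := 360) (by norm_num) (fun K hK => adm_ge hK) Cfsg.Agent.H417.EP.Six.card_A6 (by norm_num)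
    Cfsg.Agent.H417.EP.Six.ncard_adm Cfsg.Agent.H417.EP.Six.card_aut.le
  exact h1.trans_lt (by norm_num)

end Cfsg.Agent.H896.EPX
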