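import Cfsg.Agent.H758.EPX.Reg
import Cfsg.Agent.H173.EP.LineBound

/-!
# S5745, `k ≥ 1`: the line bound for the frame `EPS` (helper896)

* `card_H_le` : `|H| ≤ k! |Aut T| ^ k`;
* `index_le_line` : if `c ≤ |N ∩ H^x|` for all `x ∉ H` then `|G : H| ≤ 1 + r * (2 * (|N| / c))`, `r` the number of the
  two-point stabilisers `H ∩ H^x`.
-/

set_option autoImplicit false
set_option linter.unusedSectionVars false

namespace Cfsg.Agent.H896.EPX

open MulAction Subgroup Cfsg.Agent.H284 Cfsg.Agent.H209.EPX Cfsg.Agent.H758.EPX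

variable {G : Type*} [Group G] {H N : Subgroup G} {T : Type} [Group T] {k : ℕ} {e : N ≃* (Fin k → T)}

/-- `|H| ≤ k! |Aut T| ^ k` -/
theorem card_H_le [Finite G] (h : EPS H N e) : Nat.card H ≤ k.factorial * Nat.card (MulAut T) ^ k := by
  have hfin : Finite T := Finite.of_injective _ (inj_injective e ⟨0, h.pos⟩)
  have hco : ∀ (g : H) (i : Fin k), ∃ α : MulAut T, ∀ n : N,
      e ⟨(g : G) * n * (g : G)⁻¹, h.nrm g g.2 n n.2⟩ (Cfsg.Agent.H758.EPX.perm h g i) = α (e n i) := fun g i =>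
    EPS.coord h g.2 (Cfsg.Agent.H758.EPX.perm_spec h g i)
  choose α hα using hco
  have hinj : Function.Injective (fun g : H => (Cfsg.Agent.H758.EPX.perm h g, α g)) := by
    intro g g' hg
    have h1 : Cfsg.Agent.H758.EPX.perm h g = Cfsg.Agent.H758.EPX.perm h g' := congrArg Prod.fst hg
    have h2 : α g = α g' := congrArg Prod.snd hg
    have h3 : ∀ n : N, (g : G) * n * (g : G)⁻¹ = (g' : G) * n * (g' : G)⁻¹ := by
      intro n
      have h4 : (⟨(g : G) * n * (g : G)⁻¹, h.nrm g g.2 n n.2⟩ : N) =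
          ⟨(g' : G) * n * (g' : G)⁻¹, h.nrm g' g'.2 n n.2⟩ := by
        apply e.injective
        funext j
        have h5 : Cfsg.Agent.H758.EPX.perm h g ((Cfsg.Agent.H758.EPX.perm h g).symm j) = j :=
          Equiv.apply_symm_apply _ j
        have h6 := hα g ((Cfsg.Agent.H758.EPX.perm h g).symm j) n
        have h7 := hα g' ((Cfsg.Agent.H758.EPX.perm h g).symm j) n
        rw [← h1] at h7
        rw [h5] at h6 h7
        rw [h6, h7, h2]
      exact Subtype.ext_iff.1 h4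
    have h8 : (g : G)⁻¹ * g' ∈ Subgroup.centralizer (N : Set G) := by
      rw [Subgroup.mem_centralizer_iff]
      intro n hn
      have h9 := h3 ⟨n, hn⟩
      calc n * ((g : G)⁻¹ * g') = (g : G)⁻¹ * ((g : G) * n * (g : G)⁻¹) * g' := by group
        _ = (g : G)⁻¹ * ((g' : G) * n * (g' : G)⁻¹) * g' := by rw [h9]
        _ = (g : G)⁻¹ * g' * n := by group
    rw [h.cent, Subgroup.mem_bot, inv_mul_eq_one] at h8
    exact Subtype.ext h8
  have h9 := Nat.card_le_card_of_injective _ hinj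
  rw [Nat.card_prod, Nat.card_perm, Nat.card_fun, Nat.card_fin] at h9
  exact h9

/-- `|H| |N ∩ H^x| ≤ |N| |H ∩ H^x|` -/
theorem card_fac [Finite G] (h : EPS H N e) {x : G} (hx : x ∉ H) :
    Nat.card H * Nat.card (N ⊓ cj x H : Subgroup G) ≤ Nat.card N * Nat.card (H ⊓ cj x H : Subgroup G) := by
  have h1 : ∀ g : H, ∃ n : N, ∃ m : (H ⊓ cj x H : Subgroup G), (g : G) = n * m := by
    intro g
    obtain ⟨n, hn, m, hm, e1⟩ := h.ep.fac h.le h.nrm h.ne hx g.2
    exact ⟨⟨n, hn⟩, ⟨m, hm⟩, e1⟩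
  choose a b hab using h1
  rw [← Nat.card_prod, ← Nat.card_prod]
  refine Nat.card_le_card_of_injective (fun p : H × (N ⊓ cj x H : Subgroup G) =>
    ((a p.1 * ⟨(p.2 : G), (mem_inf.1 p.2.2).1⟩ : N),
      ((⟨(p.2 : G)⁻¹, (H ⊓ cj x H).inv_mem ⟨h.le (mem_inf.1 p.2.2).1, (mem_inf.1 p.2.2).2⟩⟩ :
        (H ⊓ cj x H : Subgroup G)) * b p.1 : (H ⊓ cj x H : Subgroup G)))) ?_
  rintro ⟨g, d⟩ ⟨g', d'⟩ hg
  have h2 : (a g : G) * d = a g' * d' := congrArg (fun z : N × (H ⊓ cj x H : Subgroup G) => (z.1 : G)) hg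
  have h3 : (d : G)⁻¹ * b g = (d' : G)⁻¹ * b g' :=
    congrArg (fun z : N × (H ⊓ cj x H : Subgroup G) => (z.2 : G)) hg
  have h4 : g = g' := by
    apply Subtype.ext
    rw [hab, hab]
    calc (a g : G) * b g = (a g * d) * ((d : G)⁻¹ * b g) := by group
      _ = (a g' * d') * ((d' : G)⁻¹ * b g') := by rw [h2, h3]
      _ = (a g' : G) * b g' := by group
  subst h4
  have h5 : d = d' := Subtype.ext (mul_left_cancel h2)
  rw [h5]

/-- **the line bound** -/
theorem index_le_line [Finite G] (h : EPS H N e) {c r : ℕ} (hc : 0 < c)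
    (hM : ∀ x, x ∉ H → c ≤ Nat.card (N ⊓ cj x H : Subgroup G))
    (hr : {M : Subgroup G | ∃ x, x ∉ H ∧ M = H ⊓ cj x H}.ncard ≤ r) :
    H.index ≤ 1 + r * (2 * (Nat.card N / c)) := by
  have := h.ep.faithful
  have hst : ∀ x : G, stabilizer G (x : G ⧸ H) = cj x H := by
    intro x
    have h1 : (x : G ⧸ H) = x • ((1 : G) : G ⧸ H) := by
      rw [MulAction.Quotient.smul_coe, smul_eq_mul, mul_one]
    rw [h1, stab_smul, MulAction.stabilizer_quotient]
  -- `|H| ≤ (|N| / c) |M|`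
  have key : ∀ x, x ∉ H → Nat.card H ≤ Nat.card N / c * Nat.card (H ⊓ cj x H : Subgroup G) := by
    intro x hx
    have h1 := card_fac h hx
    have h2 : Nat.card (N ⊓ cj x H : Subgroup G) ∣ Nat.card N := Subgroup.card_dvd_of_le inf_le_left
    obtain ⟨d, hd⟩ := h2
    have h3 : 0 < Nat.card (N ⊓ cj x H : Subgroup G) := Nat.card_pos
    have h4 : Nat.card H ≤ d * Nat.card (H ⊓ cj x H : Subgroup G) := by
      rw [hd, mul_assoc, mul_comm (Nat.card H)] at h1
      exact Nat.le_of_mul_le_mul_left h1 h3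
    refine h4.trans (Nat.mul_le_mul_right _ ?_)
    rw [Nat.le_div_iff_mul_le hc, hd, mul_comm]
    exact Nat.mul_le_mul_right _ (hM x hx)
  have hMne : ∀ x, x ∉ H → H ⊓ cj x H ≠ ⊥ := by
    intro x hx h0
    obtain ⟨a, b, hab⟩ := h.nab
    have hi : Fin k := ⟨0, h.pos⟩
    have ha : zpowers (inj e hi a) ≤ H := by
      rw [zpowers_le]
      exact h.le (inj_mem_N e hi a)
    rcases h.ep.two x hx _ (by rw [h0]; exact bot_le) ha with h1 | h1
    · rw [h0, zpowers_eq_bot] at h1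
      have h2 : a = 1 := inj_injective e hi (by rw [h1, map_one])
      apply hab
      rw [h2, one_mul, mul_one]
    · have h2 : inj e hi b ∈ zpowers (inj e hi a) := by
        rw [h1]
        exact h.le (inj_mem_N e hi b)
      obtain ⟨n, hn⟩ := h2
      apply hab
      apply inj_injective e hi
      rw [map_mul, map_mul, ← hn]
      exact (Commute.refl (inj e hi a)).zpow_right n
  have h1 := Cfsg.Agent.H173.EP.card_le_line (G := G) (Ω := G ⧸ H) h.ep.toEPA (D := Nat.card N / c) (by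
    intro p q hpq
    obtain ⟨y, rfl⟩ := QuotientGroup.mk_surjective p
    obtain ⟨z, rfl⟩ := QuotientGroup.mk_surjective q
    have hx : y⁻¹ * z ∉ H := by
      intro h1
      apply hpq
      rw [eq_comm, QuotientGroup.eq]
      exact h1
    have h2 := key _ hx
    have h3 : stabilizer G (y : G ⧸ H) = cj y H := hst y
    have h4 : stabilizer G (y : G ⧸ H) ⊓ stabilizer G (z : G ⧸ H) = cj y (H ⊓ cj (y⁻¹ * z) H) := by
      rw [hst, hst, cj_inf, ← cj_mul, mul_inv_cancel_left]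
    rw [h4, h3]
    rw [card_cj, card_cj]
    exact h2) ((1 : G) : G ⧸ H) (by
    intro b hb
    obtain ⟨z, rfl⟩ := QuotientGroup.mk_surjective b
    have hz : z ∉ H := by
      intro h1
      apply hb
      rw [eq_comm, QuotientGroup.eq, inv_one, one_mul]
      exact h1
    rw [MulAction.stabilizer_quotient, hst]
    exact hMne z hz)
  rw [EP.twoSet_eq] at h1
  refine h1.trans ?_
  have h2 : (EP.twoSet H).ncard ≤ r := hr
  gcongr

end Cfsg.Agent.H896.EPX
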