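import Cfsg.Agent.H737.EPO.Q2Of
import Cfsg.Agent.H793.PanG2
import Cfsg.Agent.H35.ExcIdxTw
import Cfsg.Agent.KFacts.RgdFiltTwAll
import Cfsg.Agent.KFacts.RgdFiltChev

/-!
# S5745, own characteristic, `q = 2`: `T = E₆(2)`, `E₇(2)`, `E₈(2)`, `²E₆(2)` (helper896)

No node survives (helper284's `surv_E6`, `surv_E7`, `surv_E8`, `surv_2E6`).
-/

set_option autoImplicit false
set_option linter.unusedSectionVars false

namespace Cfsg.Agent.H896.EPX

open CoxeterSystem Cfsg.Agent.ChevalleyStructure.CoxeterGeom Cfsg.Agent.Tits.Roots Cfsg.Agent.Tits.Core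
  Cfsg.Agent.Tits.RootComb Cfsg.Agent.Tits.Exchange Cfsg.Agent.Nodes.Reps Cfsg.Agent.Nodes.BNOf
  Cfsg.Agent.Nodes.StabComb Cfsg.Agent.Nodes.Bruhat Cfsg.Agent.Nodes.OppDec Cfsg.Agent.Nodes.LeviDec
  Cfsg.Agent.Nodes.Coroot Cfsg.Agent.KFacts.RgdPar Cfsg.Agent.KFacts.RgdSL Cfsg.Agent.KFacts.RgdVJ
  Cfsg.Agent.KFacts.RgdCharP Cfsg.Agent.H470.EPK Cfsg.Agent.H470.EPO Cfsg.Agent.H209.EPX
  Cfsg.Agent.KFacts.RgdFilt Cfsg.Agent.H284.EPT Cfsg.Agent.H50.Her Cfsg.Agent.H419.EP Cfsg.Agent.H284.Pan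
  Cfsg.Agent.H284.TThree Cfsg.Agent.Nodes.RGDLib Cfsg.Agent.H737.EPO

/-- a root group datum with the orders of the simple root groups -/
def PanW (p : ℕ) {l : ℕ} (M : CoxeterMatrix (Fin l)) (q : Fin l → ℕ) (G : Type*) [Group G] : Prop :=
  ∃ (A : Fin l → Fin l → ℤ) (h : IsCartan M A) (T : Subgroup G) (n : Fin l → G) (X : (Fin l → ℤ) → Subgroup G),
    Finite M.Group ∧ RGD M.toCoxeterSystem h p T n X ∧ G1 M.toCoxeterSystem h X = ⊤ ∧ ∀ i, Nat.card (X (sr i)) = q i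

theorem PanW.of_equiv {p l : ℕ} {M : CoxeterMatrix (Fin l)} {q : Fin l → ℕ} {G H : Type*} [Group G] [Group H]
    (e : G ≃* H) (hG : PanW p M q G) : PanW p M q H := by
  obtain ⟨A, h, T, n, X, hW, R, hX, hr⟩ := hG
  refine ⟨A, h, T.map e.toMonoidHom, fun i => e (n i), fun x => (X x).map e.toMonoidHom, hW,
    rgd_map_of_injective R e.toMonoidHom e.injective, ?_, ?_⟩
  · have h1 : (G1 M.toCoxeterSystem h X).map e.toMonoidHom =
        G1 M.toCoxeterSystem h (fun x => (X x).map e.toMonoidHom) := by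
      unfold G1 RGD.Sup
      rw [Subgroup.map_iSup]
    rw [← h1, hX, Subgroup.map_top_of_surjective _ e.surjective]
  · intro i
    rw [← hr i]
    exact (Nat.card_congr ((X (sr i)).equivMapOfInjective e.toMonoidHom e.injective).toEquiv).symm

theorem panW_of {p l : ℕ} {M : CoxeterMatrix (Fin l)} {q : Fin l → ℕ} {G : Type*} [Group G] (h : HasPan p M q G) :
    PanW p M q G := by
  obtain ⟨A, h, T, n, X, hW, R, hX, -, -, hr⟩ := h
  exact ⟨A, h, T, n, X, hW, R, hX, hr⟩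

theorem panW_twE6 {K : Type} [Field K] [Fintype K] {q : ℕ} (hq : IsPrimePow q) (hK : Fintype.card K = q ^ 2) (p : ℕ)
    [CharP K p] : PanW p CoxeterMatrix.F₄ (fun i => if (i : ℕ) < 2 then q else q ^ 2) ↥(Cfsg.Lie.twistedE6 K q) := by
  have : Fact p.Prime := ⟨CharP.char_is_prime K p⟩
  obtain ⟨φ, hφ, hqq⟩ := Cfsg.Agent.ChevalleyStructure.TwE6Basic.exists_frob hq hK
  exact ⟨_, Cfsg.Agent.Nodes.RGDTwE6.isCartan, _, _, _,
    Cfsg.Agent.Nodes.RGDFold.finite_W (hp := Cfsg.Agent.Nodes.RGDTwE6.hp) CoxeterMatrix.F₄.toCoxeterSystem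
      Cfsg.Agent.Nodes.RGDTwE6.isCartan Cfsg.Agent.Nodes.RGDTwE6.foldData,
    Cfsg.Agent.Nodes.RGDTwE6.rgd _ hφ hqq p, Cfsg.Agent.Nodes.RGDTwE6.G1_eq_top _ hφ hqq,
    fun i => Cfsg.Agent.H35.ExcIdx.card_X_tw hφ hqq hq.one_lt hK i⟩

section

variable {G : Type*} [Group G] [Finite G] {H N : Subgroup G} {T : Type} [Group T] [Finite T] {k : ℕ}
  {e : N ≃* (Fin k → T)} {l : ℕ} {M : CoxeterMatrix (Fin l)} {qf : Fin l → ℕ}

/-- **`Q2` from `EPS`**, with the `G`-side as hypothesis -/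
theorem q2_dqW (h : EPS H N e) (hP : PanW 2 M qf T) (hF : HasFilt 2 T) (h3 : 3 ≤ l)
    (hDQ : ∀ (S : PSys T 2 (Fin l)) (e' : N ≃* (Fin k → T)) (J : Fin k → Set (Fin l)), VV e' S J ≠ ⊥ →
      DQ H e' S J) : k = 1 ∧ Q2Data H N T M qf := by
  have := h.simple
  have h2 : Fact (Nat.Prime 2) := ⟨Nat.prime_two⟩
  obtain ⟨A, hC, Tt, n, X, hW, R, hX, hq⟩ := hP
  have : Nontrivial (Fin l) := Fin.nontrivial_iff_two_le.2 (by omega)
  have hG := GG_eq_top (T := Tt) hX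
  have hBT := bt_of_hasFilt R hG hF
  have hconn := Cfsg.Agent.KFacts.RgdLieCharP.conn_of_simple R hX (Cfsg.Agent.KFacts.RgdLieCharP.center_eq_bot h.nab)
  have hrk : Rk2 H N k (ofRGD R hBT hG hX hconn) :=
    Cfsg.Agent.H515.EPO.rk2_of_three R hBT hG hX hconn h.pos h.nrm (by rwa [Fintype.card_fin])
  obtain ⟨P, -, hP⟩ := exists_sylIn (p := 2) (H := H) (K := ⊥) bot_le IsPGroup.of_bot
  obtain ⟨e', hPN⟩ := exists_std (ofRGD R hBT hG hX hconn) e h.nrm h.le hP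
  obtain ⟨J₀, hJ₀, ⟨i₀, h0⟩, ⟨i₁, h1⟩⟩ := hrk e'
  obtain ⟨-, hk, i, t, c1, c2, c3, c4, c5, c6, c7⟩ := own_two e' h.nab (rk_ofRGD R hBT hG hX hconn) h.ep h.toMinN hP hPN
    (fun J hJ => hDQ _ e' J hJ) hJ₀ h0 h1
  subst hk
  have q : Q2 H P e' (ofRGD R hBT hG hX hconn) i t :=
    ⟨h.ep, h.toMinN, hP, hPN, fun J hJ => hDQ _ e' J hJ, c1, c2, c3, c4, c5, c6, c7⟩
  refine ⟨rfl, A, hC, Tt, n, X, hW, h2, R, hBT, hG, hX, hconn, e', P, i, t, q, hq, ?_, fun K hK => ?_⟩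
  · rw [← hq i, ← relIndex_ofRGD R hBT hG hX hconn i]
    exact c2
  · exact q.res_pow' h.nab hK

/-- **`Q2` from `EPS`** -/
theorem q2_panW [IsSimpleGroup G] (h : EPS H N e) (hGF : HasFilt 2 G) (hP : PanW 2 M qf T)
    (hF : HasFilt 2 T) (h3 : 3 ≤ l) : k = 1 ∧ Q2Data H N T M qf := by
  have : Fact (Nat.Prime 2) := ⟨Nat.prime_two⟩
  have hnab : ∃ a b : G, a * b ≠ b * a := by
    obtain ⟨a, b, hab⟩ := h.nab
    refine ⟨(e.symm (fun _ => a) : N), (e.symm (fun _ => b) : N), fun h3 => hab ?_⟩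
    have h4 : e.symm (fun _ => a) * e.symm (fun _ => b) = e.symm (fun _ => b) * e.symm (fun _ => a) := Subtype.ext h3
    rw [← map_mul, ← map_mul] at h4
    exact congrFun (e.symm.injective h4) ⟨0, h.pos⟩
  exact q2_dqW h hP hF h3 fun S e' J hJ => dq_of h hGF hnab (j := MonoidHom.id G) Function.injective_id
    (by rw [MonoidHom.range_eq_top.2 Function.surjective_id]; infer_instance)
    (by rw [MonoidHom.range_eq_top.2 Function.surjective_id]; exact le_top) S e' J hJ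

/-- `Q2Data` is impossible if no node survives -/
theorem q2_E6 (h : Q2Data H N T CoxeterMatrix.E₆ (fun _ => 2)) : False := by
  obtain ⟨A, hC, Tt, n, X, hW, h2, R, hBT, hG, hX, hconn, e', R₀, i, t, q, hq, hi, hres⟩ := h
  exact surv_E6 R hq hres

theorem q2_E7 (h : Q2Data H N T CoxeterMatrix.E₇ (fun _ => 2)) : False := by
  obtain ⟨A, hC, Tt, n, X, hW, h2, R, hBT, hG, hX, hconn, e', R₀, i, t, q, hq, hi, hres⟩ := h
  exact surv_E7 R hq hres

theorem q2_E8 (h : Q2Data H N T CoxeterMatrix.E₈ (fun _ => 2)) : False := by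
  obtain ⟨A, hC, Tt, n, X, hW, h2, R, hBT, hG, hX, hconn, e', R₀, i, t, q, hq, hi, hres⟩ := h
  exact surv_E8 R hq hres

theorem q2_2E6 (h : Q2Data H N T CoxeterMatrix.F₄ (fun i => if (i : ℕ) < 2 then 2 else 2 ^ 2)) : False := by
  obtain ⟨A, hC, Tt, n, X, hW, h2, R, hBT, hG, hX, hconn, e', R₀, i, t, q, hq, hi, hres⟩ := h
  exact surv_2E6 R (fun j => by rw [hq]; norm_num) ((hq i).trans hi) hres

end

section rows

variable {G : Type*} [Group G] [Finite G] [IsSimpleGroup G] (hGF : HasFilt 2 G) {H N : Subgroup G} {T : Type} [Group T]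
  {k : ℕ} {e : N ≃* (Fin k → T)} (h : EPS H N e) {K : Type} [Field K] [Fintype K]

include hGF h

/-- **`T = E₆(2)`** -/
theorem dead_E6 (hK : Fintype.card K = 2) (g : T ≃* ↥(Cfsg.Lie.chevE6.group K)) : False := by
  have : CharP K 2 := charP_of_card_eq_prime hK
  have : Finite T := Finite.of_equiv _ g.symm.toEquiv
  have hc : Nat.card K = 2 := by rw [Nat.card_eq_fintype_card, hK]
  have hP : PanW 2 CoxeterMatrix.E₆ (fun _ => 2) T := by
    have h1 := panW_of (Cfsg.Agent.H793.pan_group (D := Cfsg.Lie.chevE6) (l := 6) (M := CoxeterMatrix.E₆)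
      (by simp [Cfsg.Agent.Nodes.RGDChev.IsType, Cfsg.Agent.Nodes.RGDChev.typeList]) K 2)
    rw [hc] at h1
    exact h1.of_equiv g.symm
  exact q2_E6 (q2_panW h hGF hP ((Cfsg.Agent.KFacts.RgdFiltChev.hasFilt_E6 K 2).of_equiv g.symm) (by norm_num)).2

/-- **`T = E₇(2)`** -/
theorem dead_E7 (hK : Fintype.card K = 2) (g : T ≃* ↥(Cfsg.Lie.chevE7.group K)) : False := by
  have : CharP K 2 := charP_of_card_eq_prime hK
  have : Finite T := Finite.of_equiv _ g.symm.toEquiv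
  have hc : Nat.card K = 2 := by rw [Nat.card_eq_fintype_card, hK]
  have hP : PanW 2 CoxeterMatrix.E₇ (fun _ => 2) T := by
    have h1 := panW_of (Cfsg.Agent.H793.pan_group (D := Cfsg.Lie.chevE7) (l := 7) (M := CoxeterMatrix.E₇)
      (by simp [Cfsg.Agent.Nodes.RGDChev.IsType, Cfsg.Agent.Nodes.RGDChev.typeList]) K 2)
    rw [hc] at h1
    exact h1.of_equiv g.symm
  exact q2_E7 (q2_panW h hGF hP ((Cfsg.Agent.KFacts.RgdFiltChev.hasFilt_E7 K 2).of_equiv g.symm) (by norm_num)).2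

/-- **`T = E₈(2)`** -/
theorem dead_E8 (hK : Fintype.card K = 2) (g : T ≃* ↥(Cfsg.Lie.chevE8.group K)) : False := by
  have : CharP K 2 := charP_of_card_eq_prime hK
  have : Finite T := Finite.of_equiv _ g.symm.toEquiv
  have hc : Nat.card K = 2 := by rw [Nat.card_eq_fintype_card, hK]
  have hP : PanW 2 CoxeterMatrix.E₈ (fun _ => 2) T := by
    have h1 := panW_of (Cfsg.Agent.H793.pan_group (D := Cfsg.Lie.chevE8) (l := 8) (M := CoxeterMatrix.E₈)
      (by simp [Cfsg.Agent.Nodes.RGDChev.IsType, Cfsg.Agent.Nodes.RGDChev.typeList]) K 2)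
    rw [hc] at h1
    exact h1.of_equiv g.symm
  exact q2_E8 (q2_panW h hGF hP ((Cfsg.Agent.KFacts.RgdFiltChev.hasFilt_E8 K 2).of_equiv g.symm) (by norm_num)).2

/-- **`T = ²E₆(2)`** -/
theorem dead_2E6 (hK : Fintype.card K = 4) (g : T ≃* ↥(Cfsg.Lie.twistedE6 K 2)) : False := by
  have hK' : Fintype.card K = 2 ^ 2 := hK
  have : Fact (Nat.Prime 2) := ⟨Nat.prime_two⟩
  have : CharP K 2 := by
    obtain ⟨p, hp⟩ := CharP.exists K
    have : Fact p.Prime := ⟨CharP.char_is_prime K p⟩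
    have h1 : p = 2 := by
      obtain ⟨n, hp', hc⟩ := FiniteField.card K p
      rw [hK'] at hc
      have h1 : p ∣ 2 ^ 2 := hc ▸ dvd_pow_self p n.ne_zero
      exact (Nat.prime_dvd_prime_iff_eq hp' Nat.prime_two).1 (hp'.dvd_of_dvd_pow h1)
    rwa [h1] at hp
  have : Finite T := Finite.of_equiv _ g.symm.toEquiv
  have hq : IsPrimePow 2 := Nat.prime_two.isPrimePow
  exact q2_2E6 (q2_panW h hGF ((panW_twE6 hq hK' 2).of_equiv g.symm)
    ((Cfsg.Agent.KFacts.RgdFiltTwAll.hasFilt_E6 hq hK' 2).of_equiv g.symm) (by norm_num)).2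

end rows

end Cfsg.Agent.H896.EPX
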