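import Cfsg.Agent.H896.EPX.Line
import Cfsg.Agent.H417.EP.Weight

/-!
# S5745, `k = 2`: the line bound in terms of the admissible subgroups of `T` (helper896)

`card_le_two` : if the admissible subgroups of `T` have order at least `c ≥ 1`, `c ^ 2 ≤ |T|`, and there are at most `a`
of them, then `|G| ≤ 2 |Aut T| ^ 2 (1 + (a ^ 2 + |Aut T|) (2 |T| ^ 2 / c ^ 2))`.
-/

set_option autoImplicit false
set_option linter.unusedSectionVars false

namespace Cfsg.Agent.H896.EPX

open MulAction Subgroup Cfsg.Agent.H284 Cfsg.Agent.H209.EPX Cfsg.Agent.H758.EPX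
open Cfsg.Agent.H417.EP (Adm)

/-- the members of `LocK` are admissible -/
theorem adm_of_locK {L : Type*} [Group L] [Finite L] {K : Subgroup L} (hK : K ∈ Cfsg.Agent.H273.EPU.LocK L)
    (ht : K ≠ ⊤) : Adm K where
  ne_bot := hK.1
  ne_top := ht
  norm := by
    intro X hX hX0 hinv g hg
    have hY : (X.subgroupOf K).Characteristic := by
      rw [Subgroup.characteristic_iff_le_comap]
      intro φ y hy
      exact hinv φ y hy
    have hm : (X.subgroupOf K).map K.subtype = X := Subgroup.map_subgroupOf_eq_of_le hX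
    have hY0 : X.subgroupOf K ≠ ⊥ := by
      intro h0
      apply hX0
      rw [← hm, h0, Subgroup.map_bot]
    have h1 := hK.2 _ hY hY0
    rw [hm] at h1
    exact h1 (mem_normalizer_fintype hg)

theorem ncard_locK_le {L L' : Type*} [Group L] [Group L'] [Finite L'] (f : L ≃* L') :
    (Cfsg.Agent.H273.EPU.LocK L \ {⊤}).ncard ≤ {K : Subgroup L' | Adm K}.ncard := by
  refine Set.ncard_le_ncard_of_injOn (fun K => K.map f.toMonoidHom) ?_ ?_ (Set.toFinite _)
  · rintro K ⟨hK, ht⟩
    refine adm_of_locK (Cfsg.Agent.H273.EPU.map_mem_locK f hK) ?_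
    intro h0
    apply ht
    rw [Set.mem_singleton_iff, eq_top_iff]
    intro x _
    have h1 : f x ∈ K.map f.toMonoidHom := by rw [h0]; exact mem_top _
    obtain ⟨y, hy, hxy⟩ := h1
    have h2 : y = x := f.injective hxy
    exact h2 ▸ hy
  · intro K _ K' _ h
    exact Subgroup.map_injective f.injective h

variable {G : Type*} [Group G] {H N : Subgroup G} {T : Type} [Group T] {e : N ≃* (Fin 2 → T)}

/-- the intersections `N ∩ H^x` -/
theorem card_inf_ge [Finite G] (h : EPS H N e) (hsch : Cfsg.Agent.Schreier.Basic.Sch T) {L : Type*} [Group L]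
    (f : T ≃* L) {c : ℕ} (hc : ∀ K : Subgroup L, Adm K → c ≤ Nat.card K) (hc2 : c * c ≤ Nat.card L) {x : G}
    (hx : x ∉ H) : c * c ≤ Nat.card (N ⊓ cj x H : Subgroup G) := by
  have hfin : Finite T := Finite.of_injective _ (inj_injective e ⟨0, h.pos⟩)
  have hfinL : Finite L := Finite.of_equiv T f.toEquiv
  by_cases h0 : ∃ i, Kt e H x i ≠ ⊥
  · obtain ⟨i, hi⟩ := h0
    have hk : ∀ j, c ≤ Nat.card (Kt e H x j) := by
      intro j
      have h1 := EPS.mem_LocK h hx (EPS.Kt_ne h hx hi j)
      have h2 := EPS.Kt_ne_top h hx j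
      have h3 : Adm ((Kt e H x j).map f.toMonoidHom) := by
        refine adm_of_locK (Cfsg.Agent.H273.EPU.map_mem_locK f h1) ?_
        intro h0
        apply h2
        rw [eq_top_iff]
        intro x' _
        have h1 : f x' ∈ (Kt e H x j).map f.toMonoidHom := by rw [h0]; exact mem_top _
        obtain ⟨y, hy, hxy⟩ := h1
        have h2 : y = x' := f.injective hxy
        exact h2 ▸ hy
      have h4 := hc _ h3
      rwa [Subgroup.card_map_of_injective f.injective] at h4
    calc c * c ≤ Nat.card (Kt e H x 0) * Nat.card (Kt e H x 1) := Nat.mul_le_mul (hk 0) (hk 1)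
      _ = Nat.card (Kt e H x 0 × Kt e H x 1) := (Nat.card_prod _ _).symm
      _ ≤ Nat.card (N ⊓ cj x H : Subgroup G) := by
        refine Nat.card_le_card_of_injective (fun p => (⟨inj e 0 p.1 * inj e 1 p.2,
          N.mul_mem (inj_mem_N e 0 _) (inj_mem_N e 1 _), (cj x H).mul_mem p.1.2 p.2.2⟩ : (N ⊓ cj x H : Subgroup G))) ?_
        rintro ⟨a, b⟩ ⟨a', b'⟩ hab
        have h1 : inj e 0 (a : T) * inj e 1 (b : T) = inj e 0 (a' : T) * inj e 1 (b' : T) := congrArg Subtype.val hab
        have h2 : (⟨inj e 0 (a : T), inj_mem_N e 0 _⟩ : N) * ⟨inj e 1 (b : T), inj_mem_N e 1 _⟩ =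
            ⟨inj e 0 (a' : T), inj_mem_N e 0 _⟩ * ⟨inj e 1 (b' : T), inj_mem_N e 1 _⟩ := Subtype.ext h1
        have h3 := congrArg e h2
        rw [map_mul, map_mul, e_inj, e_inj, e_inj, e_inj] at h3
        have h4 := congrFun h3 0
        have h5 := congrFun h3 1
        simp only [Pi.mul_apply, Pi.mulSingle_eq_same] at h4 h5
        rw [Pi.mulSingle_eq_of_ne (by decide), Pi.mulSingle_eq_of_ne (by decide), mul_one, mul_one] at h4
        rw [Pi.mulSingle_eq_of_ne (by decide), Pi.mulSingle_eq_of_ne (by decide), one_mul, one_mul] at h5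
        exact Prod.ext (Subtype.ext h4) (Subtype.ext h5)
  · push Not at h0
    have hD := EPS.Dt_ne_bot h hsch (by norm_num) hx
    have hS := EPS.subdirect h hx h0 hD
    choose d hd hdt using hS 0
    refine hc2.trans ?_
    rw [← Nat.card_congr f.toEquiv]
    refine Nat.card_le_card_of_injective (fun t => (⟨((e.symm (d t) : N) : G), (e.symm (d t)).2, hd t⟩ :
      (N ⊓ cj x H : Subgroup G))) ?_
    intro t t' htt
    have h1 : e.symm (d t) = e.symm (d t') :=
      Subtype.ext (congrArg (fun z : (N ⊓ cj x H : Subgroup G) => (z : G)) htt)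
    have h2 := e.symm.injective h1
    rw [← hdt t, ← hdt t', h2]

/-- **the bound for `soc(H) = T²`** -/
theorem card_le_two [Finite G] (h : EPS H N e) (hsch : Cfsg.Agent.Schreier.Basic.Sch T) {L : Type*} [Group L]
    (f : T ≃* L) {c a A l : ℕ} (hc0 : 0 < c) (hc : ∀ K : Subgroup L, Adm K → c ≤ Nat.card K) (hl : Nat.card L = l)
    (hc2 : c * c ≤ l) (ha : {K : Subgroup L | Adm K}.ncard ≤ a) (hA : Nat.card (MulAut L) ≤ A) :
    Nat.card G ≤ (2 * A ^ 2) * (1 + (a ^ 2 + A) * (2 * (l ^ 2 / (c * c)))) := by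
  have hfin : Finite T := Finite.of_injective _ (inj_injective e ⟨0, h.pos⟩)
  have hfinL : Finite L := Finite.of_equiv T f.toEquiv
  have hTL : Nat.card T = l := by rw [Nat.card_congr f.toEquiv, hl]
  have hAT : Nat.card (MulAut T) ≤ A := by rwa [Nat.card_congr (MulAut.congr f).toEquiv]
  have hN : Nat.card N = l ^ 2 := by
    rw [Nat.card_congr e.toEquiv, Nat.card_fun, Nat.card_fin, hTL]
  have h1 : {M : Subgroup G | ∃ x, x ∉ H ∧ M = H ⊓ cj x H}.ncard ≤ a ^ 2 + A := by
    refine (EPS.ncard_total h hsch (by norm_num)).trans (add_le_add ?_ ?_)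
    · exact Nat.pow_le_pow_left ((ncard_locK_le f).trans ha) 2
    · exact (Sub.ncard_Dg_two h.simple h.nab).trans hAT
  have h2 := index_le_line h (c := c * c) (Nat.mul_pos hc0 hc0)
    (fun x hx => card_inf_ge h hsch f hc (by rw [hl]; exact hc2) hx) h1
  rw [hN] at h2
  have h3 := card_H_le h
  have h4 : Nat.card H ≤ 2 * A ^ 2 := by
    refine h3.trans ?_
    have : (2 : ℕ).factorial = 2 := rfl
    rw [this]
    exact Nat.mul_le_mul_left _ (Nat.pow_le_pow_left hAT 2)
  rw [← Subgroup.card_mul_index H]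
  exact Nat.mul_le_mul h4 h2

end Cfsg.Agent.H896.EPX
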